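import Cfsg.Agent.H752.Mp
import Cfsg.Agent.H759.FusNormal
import Cfsg.Agent.H802.FusNorm

/-! # A map that is trivial on a centric normal subgroup is a conjugation -/
set_option autoImplicit false

namespace Cfsg.Agent.H764.Q
open Cfsg Cfsg.FusionSystem Cfsg.Agent.H752

universe u

variable {Ω : Type u} [Group Ω] {S : Subgroup Ω} [Finite S] {F : FusionSystem S}

theorem fullyNormalized_of_normal {C : Subgroup Ω} (hC : C ≤ S) (hn : ∀ s ∈ S, ∀ x ∈ C, s * x * s⁻¹ ∈ C) :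
    F.IsFullyNormalized C := by
  refine ⟨hC, fun Q _ => ?_⟩
  have h1 : normalizerIn S C = S := by
    refine le_antisymm inf_le_left fun s hs => ⟨hs, ?_⟩
    refine Subgroup.mem_normalizer_iff.mpr fun x => ?_
    refine ⟨fun hx => hn s hs x hx, fun hx => ?_⟩
    have := hn s⁻¹ (inv_mem hs) _ hx
    have h2 : s⁻¹ * (s * x * s⁻¹) * s⁻¹⁻¹ = x := by group
    rwa [h2] at this
  rw [h1]
  exact Subgroup.card_le_of_le inf_le_left

/-- `γ ∈ Aut_F(C)` is trivial on the centric subgroup `M` of `C`; `C ⊴ S`, `M` is characteristic. Then `γ` is the conjugation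
by an element of `M`. -/
theorem triv_on_centric {p : ℕ} [Fact p.Prime] (hS : IsPGroup p S) (hF : F.IsSaturated p) {C M : Subgroup Ω} (hCS : C ≤ S)
    (hCn : ∀ s ∈ S, ∀ x ∈ C, s * x * s⁻¹ ∈ C) (hMC : M ≤ C) (hMn : ∀ s ∈ C, ∀ x ∈ M, s * x * s⁻¹ ∈ M)
    (hcen : ∀ s ∈ S, (∀ x ∈ M, s * x = x * s) → s ∈ M)
    (hchar : ∀ f, Mp F C f → (∀ x ∈ C, f x ∈ C) → ∀ x ∈ M, f x ∈ M) {γ : Ω → Ω} (hγ : Mp F C γ)
    (hm : ∀ x ∈ C, γ x ∈ C) (hid : ∀ x ∈ M, γ x = x) : ∃ x ∈ M, ∀ s ∈ C, γ s = x * s * x⁻¹ := by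
  have hfC : Finite C := H802.finite_of_le hCS
  have hCa : F.IsFullyAutomized p C :=
    H802.isFullyAutomized_of_isFullyNormalized hS hF (fullyNormalized_of_normal hCS hCn)
  obtain ⟨α, hα, hαγ⟩ := hγ.exists_aut hm
  have hM' : ∀ a ∈ F.autGroup C, ∀ x : C, (x : Ω) ∈ M → ((a x : C) : Ω) ∈ M := by
    intro a ha x hx
    have h1 := (mp_iff_autGroup hCS a).1 ha
    have h2 := hchar _ h1 (fun y hy => by rw [ex_apply _ hy]; exact (a _).2) x hx
    rwa [ex_apply _ x.2] at h2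
  let K : Subgroup (MulAut C) :=
    { carrier := {κ | κ ∈ F.autGroup C ∧ ∀ x : C, (x : Ω) ∈ M → κ x = x}
      one_mem' := ⟨one_mem _, fun x _ => rfl⟩
      mul_mem' := by
        rintro a b ⟨ha, ha'⟩ ⟨hb, hb'⟩
        refine ⟨mul_mem ha hb, fun x hx => ?_⟩
        rw [MulAut.mul_apply, hb' x hx, ha' x hx]
      inv_mem' := by
        rintro a ⟨ha, ha'⟩
        refine ⟨inv_mem ha, fun x hx => ?_⟩
        have h1 := congrArg (a⁻¹ : MulAut C) (ha' x hx)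
        rw [MulAut.inv_apply_self] at h1
        exact h1.symm }
  have hKA : K ≤ F.autGroup C := fun κ hκ => hκ.1
  have hKn : ∀ a ∈ F.autGroup C, ∀ k ∈ K, a * k * a⁻¹ ∈ K := by
    rintro a ha k ⟨hk, hk'⟩
    refine ⟨mul_mem (mul_mem ha hk) (inv_mem ha), fun x hx => ?_⟩
    rw [MulAut.mul_apply, MulAut.mul_apply, hk' _ (hM' _ (inv_mem ha) x hx), MulAut.apply_inv_self]
  have hKp : IsPGroup p K := by
    rintro ⟨κ, hκ, hκ'⟩
    obtain ⟨n, hn⟩ := IsPGroup.iff_card.mp hS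
    refine ⟨n, Subtype.ext ?_⟩
    show κ ^ p ^ n = 1
    ext s
    -- `y = s⁻¹ κ(s) ∈ M`
    have hy : (s⁻¹ * κ s : C).1 ∈ M := by
      refine hcen _ (hCS (s⁻¹ * κ s : C).2) fun x hx => ?_
      have hxC : x ∈ C := hMC hx
      have h1 : ((s : Ω) * x * (s : Ω)⁻¹) ∈ M := hMn s s.2 x hx
      have h2 := hκ' ⟨(s : Ω) * x * (s : Ω)⁻¹, hMC h1⟩ h1
      have h3 : (⟨(s : Ω) * x * (s : Ω)⁻¹, hMC h1⟩ : C) = s * ⟨x, hxC⟩ * s⁻¹ := rfl
      rw [h3, map_mul, map_mul, map_inv, hκ' ⟨x, hxC⟩ hx] at h2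
      have h4 : (s⁻¹ * κ s) * (⟨x, hxC⟩ : C) = (⟨x, hxC⟩ : C) * (s⁻¹ * κ s) := by
        calc (s⁻¹ * κ s) * (⟨x, hxC⟩ : C) = s⁻¹ * (κ s * ⟨x, hxC⟩ * (κ s)⁻¹) * κ s := by group
          _ = s⁻¹ * (s * ⟨x, hxC⟩ * s⁻¹) * κ s := by rw [h2]
          _ = (⟨x, hxC⟩ : C) * (s⁻¹ * κ s) := by group
      exact congrArg Subtype.val h4
    have h5 : ∀ k : ℕ, (κ ^ k) s = s * (s⁻¹ * κ s) ^ k := by
      intro k
      induction k with
      | zero => simp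
      | succ k ih =>
        rw [pow_succ', MulAut.mul_apply, ih, map_mul, map_pow, hκ' _ hy]
        rw [pow_succ', ← mul_assoc s, mul_inv_cancel_left]
    have h6 : (s⁻¹ * κ s) ^ p ^ n = 1 := by
      have h7 : (⟨((s⁻¹ * κ s : C) : Ω), hCS (s⁻¹ * κ s : C).2⟩ : S) ^ p ^ n = 1 := by
        rw [← hn]
        exact pow_card_eq_one'
      have h8 := congrArg Subtype.val h7
      rw [Subgroup.coe_pow, Subgroup.coe_one] at h8
      apply Subtype.ext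
      rw [Subgroup.coe_pow, Subgroup.coe_one]
      exact h8
    rw [h5, h6, mul_one]
    rfl
  have h1 : α ∈ K := by
    refine ⟨hα, fun x hx => Subtype.ext ?_⟩
    rw [← hαγ x x.2, hid x hx]
  have h2 := H759.le_autInducedBy_of_normal hCa K hKA hKn hKp h1
  rw [H802.mem_autInducedBy_iff] at h2
  obtain ⟨s, hs, hsα⟩ := h2
  refine ⟨s, hcen s hs fun x hx => ?_, fun x hx => ?_⟩
  · have h3 := h1.2 ⟨x, hMC hx⟩ hx
    have h4 := hsα ⟨x, hMC hx⟩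
    rw [h3] at h4
    have h5 : x = s * x * s⁻¹ := h4
    calc s * x = s * x * s⁻¹ * s := by group
      _ = x * s := by rw [← h5]
  · rw [hαγ x hx]
    exact hsα ⟨x, hx⟩

end Cfsg.Agent.H764.Q
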