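import Cfsg.Agent.H764.Q.Norm

/-! # S5176, section 5: the action of `β` on `M` -/
set_option autoImplicit false
set_option linter.unusedSectionVars false

namespace Cfsg.Agent.H764.Q
open Cfsg Cfsg.FusionSystem Cfsg.Agent.H752 Cfsg.Agent.H784.SF Cfsg.Agent.H784.Q

universe u

variable {Ω : Type u} [Group Ω] {S : Subgroup Ω} [Finite S] {F : FusionSystem S} {R : Subgroup Ω} {a b z r : Ω} {m : ℕ}
  {t c d k w : Ω} {β : Ω → Ω}

namespace A8

variable (h : CaseA8 F R a b z r m t c d k w β)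
include h

theorem R_cap : ∀ x ∈ R, t * x = x * t → x ∈ Subgroup.zpowers a := by
  intro x hx hxt
  obtain ⟨i, hi | hi⟩ := h.sit.qr.gen x hx
  · rw [hi]; exact Subgroup.pow_mem _ (Subgroup.mem_zpowers a) _
  · exfalso
    have h1 : a ^ i * t = t * a ^ i := ((show Commute t a from ta h).pow_right i).symm.eq
    rw [hi, mul_assoc, h1, ← mul_assoc, ← mul_assoc, bt h] at hxt
    have h2 : t * (b * a ^ i) = t * z * (b * a ^ i) := by
      rw [← mul_assoc, ← mul_assoc]; exact hxt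
    have h3 := mul_right_cancel h2
    exact z1 h (by simpa using h3.symm)

theorem dM : d ∈ Subgroup.zpowers a ⊔ Subgroup.zpowers d := (le_sup_right : Subgroup.zpowers d ≤ _) (Subgroup.mem_zpowers d)
theorem aM : a ∈ Subgroup.zpowers a ⊔ Subgroup.zpowers d := (le_sup_left : Subgroup.zpowers a ≤ _) (Subgroup.mem_zpowers a)

theorem MC : Subgroup.zpowers a ⊔ Subgroup.zpowers d ≤ CS S t :=
  sup_le (by rw [Subgroup.zpowers_le]; exact aC h) (by rw [Subgroup.zpowers_le]; exact h.dC)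

theorem b3mp : Mp F (CS S t) (fun x => β (β (β x))) :=
  (h.v.mp.comp h.v.mp h.v.maps).comp h.v.mp fun x hx => h.v.maps _ (h.v.maps x hx)

theorem b3a : β (β (β a)) = a := by
  obtain ⟨n, hn, hfix⟩ := h.v.odd
  have h1 : β (β (β a)) ∈ Subgroup.zpowers a := by
    have h2 := h.sit.factC (b3mp h) (VD.zC h.sit h.v) (VD.β3z h.sit h.v) a h.sit.qr.aR (aC h)
    refine R_cap h _ h2 ?_
    exact ((mem_CS.mp (h.v.maps _ (h.v.maps _ (h.v.maps a (aC h))))).2).symm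
  refine odd_fix (b3mp h) (aC h) (m1 h) h.sit.qr.oa h1 hn ?_
  have h2 : (fun x => β (β (β x))) = β^[3] := rfl
  rw [h2, ← Function.iterate_mul, mul_comm 3 n, Function.iterate_mul]
  show β^[n] (β^[n] (β^[n] a)) = a
  rw [hfix a (aC h), hfix a (aC h), hfix a (aC h)]

theorem b3d : β (β (β d)) = d := by
  obtain ⟨i, hi, hia⟩ := h.βa
  have h1 : β (β (β (d ^ i))) = d ^ i := by
    rw [← hia, b3a h]
  have hco : Nat.Coprime i (2 ^ m) := (Nat.coprime_two_right.mpr hi).pow_right m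
  obtain ⟨j, hj⟩ := Nat.exists_mul_mod_eq_one_of_coprime hco (by
    have := m1 h
    calc 1 < 2 ^ 1 := by norm_num
      _ ≤ 2 ^ m := Nat.pow_le_pow_right (by norm_num) this)
  have h2 : d = (d ^ i) ^ j := by
    rw [← pow_mul, ← Nat.mod_add_div (i * j) (2 ^ m), hj.2, pow_add, pow_mul, ← h.od, pow_orderOf_eq_one, one_pow,
      mul_one, pow_one]
  have h3 : β (β (β ((d ^ i) ^ j))) = (d ^ i) ^ j := by
    have := (b3mp h).pow (pow_mem h.dC i) j
    rw [this, h1]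
  rw [← h2] at h3
  exact h3

theorem indep {x y : ℤ} (hxy : a ^ x * d ^ y = 1) : (2 ^ m : ℤ) ∣ x ∧ (2 ^ m : ℤ) ∣ y := by
  have h1 : a ^ x ∈ Subgroup.zpowers a ⊓ Subgroup.zpowers d := by
    refine ⟨Subgroup.zpow_mem _ (Subgroup.mem_zpowers a) x, ?_⟩
    have h2 : a ^ x = (d ^ y)⁻¹ := eq_inv_of_mul_eq_one_left hxy
    show a ^ x ∈ Subgroup.zpowers d
    rw [h2]
    exact inv_mem (Subgroup.zpow_mem _ (Subgroup.mem_zpowers d) y)
  rw [h.disj, Subgroup.mem_bot] at h1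
  rw [h1, one_mul] at hxy
  exact ⟨zpow_eq_one_of h.sit.qr.oa h1, zpow_eq_one_of h.od hxy⟩

theorem zpow_congr {g : Ω} (hg : orderOf g = 2 ^ m) {x y : ℤ} (hxy : (2 ^ m : ℤ) ∣ x - y) : g ^ x = g ^ y := by
  have h1 := zpow_one_of hg hxy
  rw [zpow_sub] at h1
  exact mul_inv_eq_one.mp h1

/-- conjugation by `b⁻¹` on `M` -/
theorem binv_nf (i l : ℤ) : b⁻¹ * (a ^ i * d ^ l) * b = a ^ (-i - l) * d ^ l := by
  have h1 := (rel h).b_nf (-i - l) l
  have h2 : -(-i - l) - l = i := by ring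
  rw [h2] at h1
  rw [mul_assoc, ← h1, inv_mul_cancel_left]

theorem b_nf' (i l : ℤ) : b * (a ^ i * d ^ l) * b⁻¹ = a ^ (-i - l) * d ^ l := by
  rw [(rel h).b_nf, mul_inv_cancel_right]

/-- `b` normalizes `C_S(t)`. -/
theorem bCn : ∀ x ∈ CS S t, b⁻¹ * x * b ∈ CS S t ∧ b * x * b⁻¹ ∈ CS S t := by
  intro x hx
  obtain ⟨hxS, hxt⟩ := mem_CS.mp hx
  have hxz : x * z = z * x := h.sit.z_centr x hxS
  have hxtz : x * (t * z) = t * z * x := by rw [← mul_assoc, hxt, mul_assoc, hxz, mul_assoc]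
  have h1 := bt h
  have h2 : b * z = z * b := h.sit.qr.bz.symm
  have hb2 : b * (t * z) = t * b := by
    rw [← mul_assoc, h1, mul_assoc t z b, ← h2, mul_assoc, mul_assoc, zz h, mul_one]
  have htz : t * z = z * t := (h.sit.z_centr t (VD.tS h.sit h.v))
  refine ⟨mem_CS.mpr ⟨mul_mem (mul_mem (inv_mem (bS h)) hxS) (bS h), ?_⟩,
    mem_CS.mpr ⟨mul_mem (mul_mem (bS h) hxS) (inv_mem (bS h)), ?_⟩⟩
  · calc b⁻¹ * x * b * t = b⁻¹ * x * (b * t) := by group
      _ = b⁻¹ * (x * (t * z)) * b := by rw [h1]; group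
      _ = b⁻¹ * (t * z * x) * b := by rw [hxtz]
      _ = b⁻¹ * (t * z * b) * (b⁻¹ * x * b) := by group
      _ = b⁻¹ * (b * t) * (b⁻¹ * x * b) := by rw [h1]
      _ = t * (b⁻¹ * x * b) := by group
  · have h3 : t = b * (t * z) * b⁻¹ := by rw [hb2, mul_inv_cancel_right]
    calc b * x * b⁻¹ * t = b * x * b⁻¹ * (b * (t * z) * b⁻¹) := by rw [← h3]
      _ = b * (x * (t * z)) * b⁻¹ := by group
      _ = b * (t * z * x) * b⁻¹ := by rw [hxtz]
      _ = b * (t * z) * b⁻¹ * (b * x * b⁻¹) := by group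
      _ = t * (b * x * b⁻¹) := by rw [← h3]

/-- The map `γ = c_b β c_b⁻¹ β`. -/
theorem gmp : Mp F (CS S t) (fun x => b * β (b⁻¹ * β x * b) * b⁻¹) := by
  have h1 : Mp F (CS S t) (fun x => b⁻¹ * β x * b⁻¹⁻¹) :=
    h.v.mp.comp (mp_conj F h.v.mp.le (inv_mem (bS h))) h.v.maps
  have h2 : ∀ x ∈ CS S t, b⁻¹ * β x * b⁻¹⁻¹ ∈ CS S t := fun x hx => by
    rw [inv_inv]; exact (bCn h _ (h.v.maps x hx)).1
  have h3 := (h1.comp h.v.mp h2).comp (mp_conj F h.v.mp.le (bS h)) fun x hx => h.v.maps _ (h2 x hx)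
  refine h3.congr fun x _ => ?_
  simp only [inv_inv]

theorem gmaps : ∀ x ∈ CS S t, b * β (b⁻¹ * β x * b) * b⁻¹ ∈ CS S t := fun x hx =>
  (bCn h _ (h.v.maps _ (bCn h _ (h.v.maps x hx)).1)).2

/-- **The action of `β` on `M`.** -/
theorem beta_M : β a = d⁻¹ ∧ β d = a * d⁻¹ := by
  have q := h.sit.qr
  have hm := m1 h
  obtain ⟨i', hi', hia'⟩ := h.βa
  set i : ℤ := (i' : ℤ) with hidef
  have hia : β a = d ^ i := by rw [hia', hidef, zpow_natCast]
  have hio : Odd i := by rw [hidef]; exact_mod_cast hi'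
  obtain ⟨p, s, hps⟩ := mem_AD h.da (h.Mβ d (dM h))
  have hc : Commute d a := h.da
  have haC := aC h
  have hdC := h.dC
  have hβ : ∀ x y : ℤ, β (a ^ x * d ^ y) = a ^ (p * y) * d ^ (i * x + s * y) := by
    intro x y
    rw [h.v.mp.mul (Subgroup.zpow_mem _ haC x) (Subgroup.zpow_mem _ hdC y), mp_zpow h.v.mp haC, mp_zpow h.v.mp hdC, hia, hps,
      (hc.symm.zpow_zpow p s).mul_zpow, ← zpow_mul, ← zpow_mul, ← zpow_mul, ← mul_assoc, (hc.zpow_zpow (i * x) (p * y)).eq,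
      mul_assoc, ← zpow_add]
  have hb1 : β (β a) = a ^ (p * i) * d ^ (s * i) := by
    have h1 := hβ 0 i
    rw [zpow_zero, one_mul, mul_zero, zero_add] at h1
    rw [hia, h1]
  have hb2 : β (β (β a)) = a ^ (p * (s * i)) * d ^ (i * (p * i) + s * (s * i)) := by rw [hb1, hβ]
  rw [b3a h] at hb2
  have h1 : a ^ (p * (s * i) - 1) * d ^ (i * (p * i) + s * (s * i)) = 1 := by
    have h2 : a⁻¹ * (a ^ (p * (s * i)) * d ^ (i * (p * i) + s * (s * i))) = 1 := by rw [← hb2, inv_mul_cancel]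
    rw [sub_eq_neg_add, zpow_add, zpow_neg_one, mul_assoc]
    exact h2
  obtain ⟨e1, e2⟩ := indep h h1
  have hcop : IsCoprime (2 ^ m : ℤ) i := by
    apply IsCoprime.pow_left
    obtain ⟨l, hl⟩ := hio
    rw [hl]
    exact ⟨-l, 1, by ring⟩
  have e3 : (2 ^ m : ℤ) ∣ i * p + s * s := by
    have h2 : i * (p * i) + s * (s * i) = i * (i * p + s * s) := by ring
    rw [h2] at e2
    exact hcop.dvd_of_dvd_mul_left e2
  have e4 : (2 ^ m : ℤ) ∣ (-s) ^ 3 - 1 := by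
    have h2 : (-s) ^ 3 - 1 = (p * (s * i) - 1) - s * (i * p + s * s) := by ring
    rw [h2]
    exact dvd_sub e1 (e3.mul_left s)
  have e5 := two_pow_dvd_sub_one hm (by decide : Odd 3) e4
  -- `γ a ∈ ⟨a⟩`
  have hg : b * β (b⁻¹ * β a * b) * b⁻¹ = a ^ (-(p * i) - (i * (-i) + s * i)) * d ^ (i * (-i) + s * i) := by
    have h2 : b⁻¹ * β a * b = a ^ (-i) * d ^ i := by
      have h3 := binv_nf h 0 i
      rw [zpow_zero, one_mul] at h3
      rw [hia, h3]
      congr 2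
      ring
    rw [h2, hβ, b_nf' h]
  have hgz : b * β (b⁻¹ * β z * b) * b⁻¹ = z := by
    have hzb : b * z = z * b := q.bz.symm
    have h2 : b⁻¹ * t * b = t * z := by
      rw [mul_assoc, inv_mul_eq_iff_eq_mul, ← mul_assoc, bt h, mul_assoc t z b, ← hzb, mul_assoc, mul_assoc, zz h, mul_one]
    rw [h.v.βz, h2, VD.βtz h.sit h.v, hzb, mul_inv_cancel_right]
  have hgR : b * β (b⁻¹ * β a * b) * b⁻¹ ∈ Subgroup.zpowers a := by
    have h2 := h.sit.factC (gmp h) (VD.zC h.sit h.v) hgz a q.aR haC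
    exact R_cap h _ h2 ((mem_CS.mp (gmaps h a haC)).2).symm
  have e6 : (2 ^ m : ℤ) ∣ i * (-i) + s * i := by
    obtain ⟨u, hu⟩ := Subgroup.mem_zpowers_iff.mp hgR
    rw [hg] at hu
    have h2 : a ^ (-(p * i) - (i * (-i) + s * i) - u) * d ^ (i * (-i) + s * i) = 1 := by
      have h3 : (a ^ u)⁻¹ * (a ^ (-(p * i) - (i * (-i) + s * i)) * d ^ (i * (-i) + s * i)) = 1 := by rw [← hu, inv_mul_cancel]
      rw [sub_eq_neg_add _ u, zpow_add, zpow_neg, mul_assoc]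
      exact h3
    exact (indep h h2).2
  have e7 : (2 ^ m : ℤ) ∣ s - i := by
    have h2 : i * (-i) + s * i = i * (s - i) := by ring
    rw [h2] at e6
    exact hcop.dvd_of_dvd_mul_left e6
  have e8 : (2 ^ m : ℤ) ∣ i + 1 := by
    have h2 : i + 1 = -(-s - 1) - (s - i) := by ring
    rw [h2]
    exact dvd_sub (dvd_neg.mpr e5) e7
  have e9 : (2 ^ m : ℤ) ∣ p - 1 := by
    have h2 : p - 1 = (i + 1) * p - (i * p + s * s) + (1 - s) * (-s - 1) := by ring
    rw [h2]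
    exact dvd_add (dvd_sub (e8.mul_right p) e3) (e5.mul_left _)
  refine ⟨?_, ?_⟩
  · rw [hia, ← zpow_neg_one]
    exact zpow_congr h h.od (by rwa [sub_neg_eq_add])
  · rw [hps]
    have h2 : a ^ p = a := by
      have := zpow_congr h q.oa e9
      rwa [zpow_one] at this
    have h3 : d ^ s = d⁻¹ := by
      rw [← zpow_neg_one]
      refine zpow_congr h h.od ?_
      have h4 : s - -1 = -(-s - 1) := by ring
      rw [h4]
      exact dvd_neg.mpr e5
    rw [h2, h3]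

end A8

end Cfsg.Agent.H764.Q
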