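import Cfsg.Agent.H764.Q.Beta
import Cfsg.Agent.H752.Ext

/-! # S5176, section 5: normal form of `β` on the involution `b w` -/
set_option autoImplicit false
set_option linter.unusedSectionVars false

namespace Cfsg.Agent.H764.Q
open Cfsg Cfsg.FusionSystem Cfsg.Agent.H752 Cfsg.Agent.H784.SF Cfsg.Agent.H784.Q

universe u

variable {Ω : Type u} [Group Ω] {S : Subgroup Ω} [Finite S] {F : FusionSystem S} {R : Subgroup Ω} {a b z r : Ω} {m : ℕ}
  {t c d k w : Ω} {β : Ω → Ω}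

theorem QR.shift (q : QR R a b z r m) : QR R a (b * a) z r m where
  m3 := q.m3
  aR := q.aR
  bR := mul_mem q.bR q.aR
  oa := q.oa
  hz := q.hz
  hr := q.hr
  bb := by
    have h1 : a * b = b * a⁻¹ := by
      have h2 := q.ba
      rw [eq_inv_mul_iff_mul_eq] at h2
      rw [eq_mul_inv_iff_mul_eq, mul_assoc]
      exact h2
    calc b * a * (b * a) = b * (a * b) * a := by group
      _ = b * (b * a⁻¹) * a := by rw [h1]
      _ = b * b := by group
      _ = z := q.bb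
  ba := by rw [q.ba, mul_assoc, q.ba]
  bA := fun h => q.bA (by
    have h1 := mul_mem h (inv_mem (Subgroup.mem_zpowers a))
    rwa [mul_inv_cancel_right] at h1)
  gen := fun x hx => by
    obtain ⟨i, hi | hi⟩ := q.gen x hx
    · exact ⟨i, Or.inl hi⟩
    · refine ⟨i + (2 ^ m - 1), Or.inr ?_⟩
      have h1 : a ^ (2 ^ m - 1) * a = 1 := by
        rw [← pow_succ, Nat.sub_add_cancel Nat.one_le_two_pow, ← q.oa, pow_orderOf_eq_one]
      have h2 : a ^ (2 ^ m - 1) = a⁻¹ := eq_inv_of_mul_eq_one_left h1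
      rw [hi, pow_add, h2, mul_assoc b a, ← mul_assoc a, ← pow_succ', pow_succ, mul_inv_cancel_right]

namespace A8

variable (h : CaseA8 F R a b z r m t c d k w β)
include h

theorem ab : a * b = b * a⁻¹ := by
  have h2 := h.sit.qr.ba
  rw [eq_inv_mul_iff_mul_eq] at h2
  rw [eq_mul_inv_iff_mul_eq, mul_assoc]
  exact h2

theorem shift : CaseA8 F R a (b * a) z r m t c d k w β where
  sit := { h.sit with qr := QR.shift h.sit.qr }
  v := h.v
  tc := h.tc
  cK := h.cK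
  cc := h.cc
  dC := h.dC
  od := h.od
  da := h.da
  bd := by
    calc b * a * d = b * (a * d) := mul_assoc _ _ _
      _ = b * (d * a) := by rw [h.da]
      _ = b * d * a := by rw [mul_assoc]
      _ = d * a⁻¹ * b * a := by rw [h.bd]
      _ = d * a⁻¹ * (b * a) := by rw [mul_assoc _ b a]
  disj := h.disj
  td := h.td
  βa := h.βa
  hk := h.hk
  kK := h.kK
  ok := h.ok
  K₀ := h.K₀
  ck := h.ck
  Mβ := h.Mβ
  cM := h.cM
  pow := h.pow
  Vn := h.Vn
  K := h.K
  wK := h.wK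
  wk := h.wk
  ww := h.ww
  wn := h.wn
  Kgen := h.Kgen
  gen := fun s hs => by
    obtain ⟨x, hx, hs'⟩ := h.gen s hs
    have hab := ab h
    have h1 : a * (b * a) = b := by
      rw [← mul_assoc, hab, inv_mul_cancel_right]
    rcases hs' with rfl | rfl | rfl | rfl
    · exact ⟨_, hx, Or.inl rfl⟩
    · exact ⟨x * a, mul_mem hx (aM h), Or.inr (Or.inl (by rw [mul_assoc, h1]))⟩
    · exact ⟨_, hx, Or.inr (Or.inr (Or.inl rfl))⟩
    · refine ⟨x * a, mul_mem hx (aM h), Or.inr (Or.inr (Or.inr ?_))⟩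
      rw [mul_assoc x a, ← mul_assoc a, h1]

/-- `ι = b w` is an involution. -/
theorem ii : b * w * (b * w) = 1 := by
  calc b * w * (b * w) = b * (w * b) * w := by group
    _ = b * b * (w * w) := by rw [wb h]; group
    _ = 1 := by rw [h.sit.qr.bb, h.ww, zz h]

theorem i_inv {x : Ω} (hx : x ∈ Subgroup.zpowers a ⊔ Subgroup.zpowers d) : b * w * x = x⁻¹ * (b * w) := by
  rw [← bw_inv h x hx, inv_mul_cancel_right]

theorem bnC : b ∉ CS S t := fun h1 => by
  have h2 := (mem_CS.mp h1).2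
  rw [bt h] at h2
  have h3 := mul_right_cancel h2
  exact z1 h (by simpa using h3)

theorem wnC : w ∉ CS S t := fun h1 => by
  have h2 := (mem_CS.mp h1).2
  rw [wt h] at h2
  have h3 := mul_right_cancel h2
  exact z1 h (by simpa using h3)

theorem C_cases {s : Ω} (hs : s ∈ CS S t) : s ∈ Subgroup.zpowers a ⊔ Subgroup.zpowers d ∨
    ∃ x ∈ Subgroup.zpowers a ⊔ Subgroup.zpowers d, s = x * (b * w) := by
  obtain ⟨x, hx, hs'⟩ := h.gen s (mem_CS.mp hs).1
  rcases hs' with rfl | rfl | rfl | rfl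
  · exact Or.inl hx
  · exact absurd (((CS S t).mul_mem_cancel_left (MC h hx)).mp hs) (bnC h)
  · exact absurd (((CS S t).mul_mem_cancel_left (MC h hx)).mp hs) (wnC h)
  · exact Or.inr ⟨x, hx, rfl⟩

theorem a2 : a * a ≠ 1 := by
  intro h1
  have h2 : orderOf a ∣ 2 := orderOf_dvd_of_pow_eq_one (by rw [pow_two]; exact h1)
  rw [h.sit.qr.oa] at h2
  have h3 := h.sit.qr.m3
  have h4 : 2 ^ 3 ≤ 2 ^ m := Nat.pow_le_pow_right (by norm_num) h3
  have h5 := Nat.le_of_dvd (by norm_num) h2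
  omega

theorem d2 : d * d ≠ 1 := by
  intro h1
  have h2 : orderOf d ∣ 2 := orderOf_dvd_of_pow_eq_one (by rw [pow_two]; exact h1)
  rw [h.od] at h2
  have h3 := h.sit.qr.m3
  have h4 : 2 ^ 3 ≤ 2 ^ m := Nat.pow_le_pow_right (by norm_num) h3
  have h5 := Nat.le_of_dvd (by norm_num) h2
  omega

theorem out_sq {x : Ω} (hx : x ∈ Subgroup.zpowers a ⊔ Subgroup.zpowers d) : x * (b * w) * (x * (b * w)) = 1 := by
  calc x * (b * w) * (x * (b * w)) = x * (b * w * x) * (b * w) := by group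
    _ = x * (x⁻¹ * (b * w)) * (b * w) := by rw [i_inv h hx]
    _ = b * w * (b * w) := by group
    _ = 1 := ii h

/-- `M` is invariant under `Aut_F(C_S(t))`. -/
theorem M_char : ∀ f, Mp F (CS S t) f → (∀ x ∈ CS S t, f x ∈ CS S t) → ∀ x ∈ Subgroup.zpowers a ⊔ Subgroup.zpowers d,
    f x ∈ Subgroup.zpowers a ⊔ Subgroup.zpowers d := by
  intro f hf hm
  have h1 : ∀ g ∈ CS S t, g * g ≠ 1 → f g ∈ Subgroup.zpowers a ⊔ Subgroup.zpowers d := by
    intro g hg hgg
    rcases C_cases h (hm g hg) with h2 | ⟨x, hx, h2⟩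
    · exact h2
    · exfalso
      apply hgg
      refine hf.inj (mul_mem hg hg) (one_mem _) ?_
      rw [hf.mul hg hg, hf.one, h2]
      exact out_sq h hx
  have h2 : ∀ g ∈ CS S t, f g ∈ Subgroup.zpowers a ⊔ Subgroup.zpowers d → ∀ x ∈ Subgroup.zpowers g,
      f x ∈ Subgroup.zpowers a ⊔ Subgroup.zpowers d := by
    intro g hg hfg x hx
    obtain ⟨i, rfl⟩ := Subgroup.mem_zpowers_iff.mp hx
    rw [mp_zpow hf hg]
    exact Subgroup.zpow_mem _ hfg i
  exact (hf.res (MC h)).mem_sup (h2 a (aC h) (h1 a (aC h) (a2 h))) (h2 d h.dC (h1 d h.dC (d2 h)))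

theorem inM : b * w ∉ Subgroup.zpowers a ⊔ Subgroup.zpowers d := fun h1 => by
  obtain ⟨i, l, hil⟩ := mem_AD h.da h1
  have hc : Commute d a := h.da
  have h2 : b * w * a = a * (b * w) := by
    rw [hil]
    exact (((Commute.refl a).zpow_left i).mul_left (hc.zpow_left l)).eq
  rw [i_inv h (aM h)] at h2
  have h3 := mul_right_cancel h2
  apply a2 h
  calc a * a = a * a⁻¹ := by rw [h3]
    _ = 1 := mul_inv_cancel a

theorem exists_m0 : ∃ u v : ℤ, β (b * w) = a ^ u * d ^ v * (b * w) := by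
  rcases C_cases h (h.v.maps _ (bwC h)) with h1 | ⟨x, hx, h1⟩
  · exfalso
    have hfM : Finite ↥(Subgroup.zpowers a ⊔ Subgroup.zpowers d) :=
      H802.finite_of_le ((MC h).trans h.v.mp.le)
    obtain ⟨x, hx, hxe⟩ := (h.v.mp.res (MC h)).surj h.Mβ h1
    have h2 := h.v.mp.inj (MC h hx) (bwC h) hxe
    exact inM h (h2 ▸ hx)
  · obtain ⟨u, v, rfl⟩ := mem_AD h.da hx
    exact ⟨u, v, h1⟩

theorem beta_nf (x y : ℤ) : β (a ^ x * d ^ y) = a ^ y * d ^ (-x - y) := by
  obtain ⟨h1, h2⟩ := beta_M h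
  have hc : Commute d a := h.da
  rw [h.v.mp.mul (Subgroup.zpow_mem _ (aC h) x) (Subgroup.zpow_mem _ h.dC y), mp_zpow h.v.mp (aC h), mp_zpow h.v.mp h.dC, h1,
    h2, hc.symm.inv_right.mul_zpow, ← mul_assoc, inv_zpow, inv_zpow, ← zpow_neg, ← zpow_neg, (hc.zpow_zpow (-x) y).eq,
    mul_assoc, ← zpow_add]
  rfl

theorem m0_even {u v : ℤ} (h0 : β (b * w) = a ^ u * d ^ v * (b * w)) : Even (u + v) := by
  have hc : Commute d a := h.da
  have hbi : b⁻¹ * (b * w) * b = b * w := by rw [inv_mul_cancel_left, wb h]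
  -- `γ` on `M`
  have hgM : ∀ x y : ℤ, b * β (b⁻¹ * β (a ^ x * d ^ y) * b) * b⁻¹ = a ^ x * d ^ y := by
    intro x y
    rw [beta_nf h, binv_nf h, beta_nf h, b_nf' h]
    congr 2 <;> ring
  have hgi : b * β (b⁻¹ * β (b * w) * b) * b⁻¹ = a ^ (-(u + v) - (u + v)) * d ^ (u + v) * (b * w) := by
    have h1 : b⁻¹ * (a ^ u * d ^ v * (b * w)) * b = a ^ (-u - v) * d ^ v * (b * w) := by
      calc b⁻¹ * (a ^ u * d ^ v * (b * w)) * b = b⁻¹ * (a ^ u * d ^ v) * b * (b⁻¹ * (b * w) * b) := by group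
        _ = _ := by rw [binv_nf h, hbi]
    have h2 : b * (b * w) * b⁻¹ = b * w := by
      rw [mul_inv_eq_iff_eq_mul, mul_assoc, wb h]
    have h3 : a ^ v * d ^ (-(-u - v) - v) * (a ^ u * d ^ v) = a ^ (u + v) * d ^ (u + v) := by
      have h4 : -(-u - v) - v = u := by ring
      rw [h4, mul_assoc, ← mul_assoc (d ^ u), (hc.zpow_zpow u u).eq, mul_assoc, ← mul_assoc, ← zpow_add, ← zpow_add, add_comm v u]
    rw [h0, h1, h.v.mp.mul (MC h (AD_mem _ _)) (bwC h), h0, beta_nf h, ← mul_assoc (a ^ v * d ^ (-(-u - v) - v)), h3]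
    calc b * (a ^ (u + v) * d ^ (u + v) * (b * w)) * b⁻¹ = b * (a ^ (u + v) * d ^ (u + v)) * b⁻¹ * (b * (b * w) * b⁻¹) := by group
      _ = _ := by rw [b_nf' h, h2]
  obtain ⟨x, hx, hx'⟩ := triv_on_centric h.sit.hS h.sit.sat h.v.mp.le
    (fun s hs x hx => by
      -- `C_S(t)` is normal in `S`
      obtain ⟨hxS, hxt⟩ := mem_CS.mp hx
      refine mem_CS.mpr ⟨mul_mem (mul_mem hs hxS) (inv_mem hs), ?_⟩
      have h1 : s * x * s⁻¹ * (s * t * s⁻¹) = s * t * s⁻¹ * (s * x * s⁻¹) := by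
        calc s * x * s⁻¹ * (s * t * s⁻¹) = s * (x * t) * s⁻¹ := by group
          _ = s * (t * x) * s⁻¹ := by rw [hxt]
          _ = _ := by group
      have hz := h.sit.z_centr (s * x * s⁻¹) (mul_mem (mul_mem hs hxS) (inv_mem hs))
      rcases h.Vn s hs with h2 | h2
      · rw [h2] at h1
        exact h1
      · rw [h2] at h1
        have h3 : s * x * s⁻¹ * t * z = t * (s * x * s⁻¹) * z := by
          calc s * x * s⁻¹ * t * z = s * x * s⁻¹ * (t * z) := by rw [mul_assoc]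
            _ = t * z * (s * x * s⁻¹) := h1
            _ = t * (z * (s * x * s⁻¹)) := by rw [mul_assoc]
            _ = t * (s * x * s⁻¹ * z) := by rw [hz]
            _ = _ := by simp only [mul_assoc]
        exact mul_right_cancel h3)
    (MC h)
    (fun s hs x hx => by
      obtain ⟨i, hi⟩ := h.pow s hs
      rw [hi x hx]
      exact Subgroup.pow_mem _ hx i)
    (fun s hs hsM => by
      have hta : s * t = t * s := hsM t (by
        have h1 : t ∈ Subgroup.zpowers d := by rw [h.td]; exact Subgroup.pow_mem _ (Subgroup.mem_zpowers d) _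
        exact (le_sup_right : Subgroup.zpowers d ≤ _) h1)
      exact h.cM s (mem_CS.mpr ⟨hs, hta⟩) (hsM a (aM h)))
    (M_char h) (gmp h) (gmaps h)
    (fun x hx => by
      obtain ⟨i, l, rfl⟩ := mem_AD h.da hx
      exact hgM i l)
  have h1 : b * β (b⁻¹ * β (b * w) * b) * b⁻¹ = x * (b * w) * x⁻¹ := hx' _ (bwC h)
  rw [hgi] at h1
  obtain ⟨e, f, rfl⟩ := mem_AD h.da hx
  have h2 : a ^ e * d ^ f * (b * w) * (a ^ e * d ^ f)⁻¹ = a ^ (e + e) * d ^ (f + f) * (b * w) := by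
    rw [mul_assoc, i_inv h (inv_mem hx), inv_inv, ← mul_assoc]
    congr 1
    rw [mul_assoc, ← mul_assoc (d ^ f), (hc.zpow_zpow f e).eq, mul_assoc, ← mul_assoc, ← zpow_add, ← zpow_add]
  rw [h2] at h1
  have h3 := mul_right_cancel h1
  have h4 : a ^ (-(u + v) - (u + v) - (e + e)) * d ^ (u + v - (f + f)) = 1 := by
    rw [zpow_sub a, zpow_sub d]
    calc a ^ (-(u + v) - (u + v)) * (a ^ (e + e))⁻¹ * (d ^ (u + v) * (d ^ (f + f))⁻¹)
        = (a ^ (e + e))⁻¹ * (a ^ (-(u + v) - (u + v)) * d ^ (u + v)) * (d ^ (f + f))⁻¹ := by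
          rw [← zpow_neg, ((Commute.refl a).zpow_zpow (-(u + v) - (u + v)) (-(e + e))).eq]
          simp only [mul_assoc]
      _ = (a ^ (e + e))⁻¹ * (a ^ (e + e) * d ^ (f + f)) * (d ^ (f + f))⁻¹ := by rw [h3]
      _ = 1 := by group
  have h5 := (indep h h4).2
  have h6 : (2 : ℤ) ∣ u + v - (f + f) := dvd_trans (dvd_pow_self 2 (by have := m1 h; omega)) h5
  obtain ⟨l, hl⟩ := h6
  exact ⟨l + f, by linarith⟩

end A8

/-- **Normal form of `β`.** -/
theorem A8.normal (h : CaseA8 F R a b z r m t c d k w β) : ∃ b' x₀, CaseA8 F R a b' z r m t c d k w β ∧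
    x₀ ∈ Subgroup.zpowers a ⊔ Subgroup.zpowers d ∧ β (b' * w) = x₀ * x₀ * (b' * w) := by
  obtain ⟨u, v, h0⟩ := A8.exists_m0 h
  have hc : Commute d a := h.da
  have h1 := A8.m0_even h h0
  have hsq : ∀ e f : ℤ, a ^ e * d ^ f * (a ^ e * d ^ f) = a ^ (e + e) * d ^ (f + f) := by
    intro e f
    rw [mul_assoc, ← mul_assoc (d ^ f), (hc.zpow_zpow f e).eq, mul_assoc, ← mul_assoc, ← zpow_add, ← zpow_add]
  rcases Int.even_or_odd u with hu | hu
  · have hv : Even v := (Int.even_add.mp h1).mp hu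
    obtain ⟨e, rfl⟩ := hu
    obtain ⟨f, rfl⟩ := hv
    exact ⟨b, a ^ e * d ^ f, h, AD_mem _ _, by rw [hsq]; exact h0⟩
  · have hv : Odd v := by
      rcases Int.even_or_odd v with hv | hv
      · exact absurd ((Int.even_add.mp h1).mpr hv) (Int.not_even_iff_odd.mpr hu)
      · exact hv
    obtain ⟨e, he⟩ := hu.add_one
    obtain ⟨f, hf⟩ := hv.add_one
    refine ⟨b * a, a ^ e * d ^ f, A8.shift h, AD_mem _ _, ?_⟩
    have h2 : b * a * w = a⁻¹ * (b * w) := by
      rw [mul_assoc, ← A8.wa h, ← mul_assoc, A8.i_inv h (A8.aM h)]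
    have h3 := A8.beta_nf h (-1) 0
    rw [zpow_neg_one, zpow_zero, mul_one, zpow_zero, one_mul, neg_neg, sub_zero, zpow_one] at h3
    rw [hsq, h2, h.v.mp.mul (inv_mem (A8.aC h)) (A8.bwC h), h3, h0, ← he, ← hf, zpow_add_one, zpow_add_one]
    calc d * (a ^ u * d ^ v * (b * w)) = a ^ u * (d * d ^ v) * (b * w) := by
          rw [← mul_assoc d, ← mul_assoc d (a ^ u), (hc.zpow_right u).eq]; simp only [mul_assoc]
      _ = a ^ u * a * (d ^ v * d) * a⁻¹ * (b * w) := by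
          have h4 : a ^ u * a * (d ^ v * d) = a ^ u * (d ^ v * d) * a := by
            rw [mul_assoc, mul_assoc (a ^ u)]
            congr 1
            exact ((hc.symm.zpow_right v).mul_right hc.symm).eq
          rw [h4, mul_inv_cancel_right, ← zpow_add_one, ← zpow_one_add, add_comm]
      _ = _ := by simp only [mul_assoc]

end Cfsg.Agent.H764.Q
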