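import Cfsg.Agent.H764.Q.Iota
import Cfsg.Agent.H784.Q.NF

/-! # S5176, section 5.1: existence of the normal form -/
set_option autoImplicit false

namespace Cfsg.Agent.H764.Q
open Cfsg Cfsg.FusionSystem Cfsg.Agent.H752 Cfsg.Agent.H784.SF Cfsg.Agent.H784.Q Cfsg.Agent.H764.Q

universe u

variable {Ω : Type u} [Group Ω] {S : Subgroup Ω} [Finite S] {F : FusionSystem S} {R : Subgroup Ω} {a b z r : Ω} {m : ℕ}
  {t c d k w : Ω} {β : Ω → Ω}

/-- Composition of `β` with the conjugation by an element of `M`. -/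
theorem A8.twist (h : CaseA8 F R a b z r m t c d k w β) {x₀ : Ω}
    (hx₀ : x₀ ∈ Subgroup.zpowers a ⊔ Subgroup.zpowers d) (hβ : β (b * w) = x₀ * x₀ * (b * w)) :
    NF F R a b z r m t c d k w (fun x => x₀⁻¹ * β x * x₀) := by
  have hMcomm : ∀ x ∈ Subgroup.zpowers a ⊔ Subgroup.zpowers d, ∀ y ∈ Subgroup.zpowers a ⊔ Subgroup.zpowers d, x * y = y * x := by
    intro x hx y hy
    have hc : Commute d a := h.da
    obtain ⟨i, l, rfl⟩ := mem_AD h.da hx
    obtain ⟨i', l', rfl⟩ := mem_AD h.da hy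
    exact (((Commute.refl a).zpow_zpow i i').mul_right (hc.symm.zpow_zpow i l')).mul_left
      ((hc.zpow_zpow l i').mul_right ((Commute.refl d).zpow_zpow l l')) |>.eq
  have hon : ∀ x ∈ Subgroup.zpowers a ⊔ Subgroup.zpowers d, x₀⁻¹ * β x * x₀ = β x := by
    intro x hx
    rw [mul_assoc, hMcomm _ (h.Mβ x hx) _ hx₀, inv_mul_cancel_left]
  have hx₀C : x₀ ∈ CS S t := A8.MC h hx₀
  have hx₀S : x₀ ∈ S := (mem_CS.mp hx₀C).1
  have htM : t ∈ Subgroup.zpowers a ⊔ Subgroup.zpowers d := by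
    have h1 : t ∈ Subgroup.zpowers d := by rw [h.td]; exact Subgroup.pow_mem _ (Subgroup.mem_zpowers d) _
    exact (le_sup_right : Subgroup.zpowers d ≤ _) h1
  have hzM : z ∈ Subgroup.zpowers a ⊔ Subgroup.zpowers d := by
    have h1 : z ∈ Subgroup.zpowers a := h.sit.qr.zA
    exact (le_sup_left : Subgroup.zpowers a ≤ _) h1
  have hmp : Mp F (CS S t) (fun x => x₀⁻¹ * β x * x₀) := by
    have := h.v.mp.comp (mp_conj F h.v.mp.le (inv_mem hx₀S)) h.v.maps
    refine this.congr fun x _ => by rw [inv_inv]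
  have hmaps : ∀ x ∈ CS S t, x₀⁻¹ * β x * x₀ ∈ CS S t := fun x hx =>
    mul_mem (mul_mem (inv_mem hx₀C) (h.v.maps x hx)) hx₀C
  have hfin : Finite ↥(CS S t) := H802.finite_of_le h.v.mp.le
  have hi : x₀⁻¹ * β (b * w) * x₀ = b * w := by
    rw [hβ, mul_assoc, mul_assoc, A8.i_inv h hx₀]
    group
  -- the cube is trivial
  have hb := A8.beta_M h
  have h3M : ∀ x ∈ Subgroup.zpowers a ⊔ Subgroup.zpowers d, (fun x => x₀⁻¹ * β x * x₀)^[3] x = x := by
    intro x hx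
    show x₀⁻¹ * β (x₀⁻¹ * β (x₀⁻¹ * β x * x₀) * x₀) * x₀ = x
    rw [hon x hx, hon _ (h.Mβ x hx), hon _ (h.Mβ _ (h.Mβ x hx))]
    obtain ⟨i, l, rfl⟩ := mem_AD h.da hx
    rw [A8.beta_nf h, A8.beta_nf h, A8.beta_nf h]
    congr 2 <;> ring
  have h3 : ∀ x ∈ CS S t, (fun x => x₀⁻¹ * β x * x₀)^[3] x = x := by
    intro x hx
    rcases A8.C_cases h hx with h1 | ⟨y, hy, rfl⟩
    · exact h3M x h1
    · have hcomp : Mp F (CS S t) (fun x => x₀⁻¹ * β x * x₀)^[3] :=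
        (hmp.comp hmp hmaps).comp hmp fun x hx => hmaps _ (hmaps x hx)
      rw [hcomp.mul (A8.MC h hy) (A8.bwC h), h3M y hy]
      congr 1
      show x₀⁻¹ * β (x₀⁻¹ * β (x₀⁻¹ * β (b * w) * x₀) * x₀) * x₀ = b * w
      rw [hi, hi, hi]
  have hv : VD F z t (fun x => x₀⁻¹ * β x * x₀) :=
    { cj := h.v.cj
      ne := h.v.ne
      mp := hmp
      maps := hmaps
      surj := fun x hx => hmp.surj hmaps hx
      βz := (hon z hzM).trans h.v.βz
      βt := (hon t htM).trans h.v.βt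
      odd := ⟨3, by decide, h3⟩ }
  have hβa : ∃ i : ℕ, Odd i ∧ x₀⁻¹ * β a * x₀ = d ^ i := by
    rw [hon a (A8.aM h)]
    exact h.βa
  exact
    { h with
      v := hv
      βa := hβa
      Mβ := fun x hx => by
        show x₀⁻¹ * β x * x₀ ∈ _
        rw [hon x hx]
        exact h.Mβ x hx
      βa' := (hon a (A8.aM h)).trans hb.1
      βd := (hon d (A8.dM h)).trans hb.2
      βi := hi }

/-- **5.1**: the normal form. -/
theorem A8.nf (h : CaseA8 F R a b z r m t c d k w β) : ∃ b' β', NF F R a b' z r m t c d k w β' := by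
  obtain ⟨b', x₀, h', hx₀, hβ⟩ := A8.normal h
  exact ⟨b', _, A8.twist h' hx₀ hβ⟩

end Cfsg.Agent.H764.Q
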