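import Cfsg.Agent.H764.Q.Rel
import Cfsg.Agent.H764.Q.TrivOn
import Cfsg.Agent.H784.Q.CaseA1

/-! # S5176, section 5: relations in case (A8), normal form of `β` -/
set_option autoImplicit false
set_option linter.unusedSectionVars false

namespace Cfsg.Agent.H764.Q
open Cfsg Cfsg.FusionSystem Cfsg.Agent.H752 Cfsg.Agent.H784.SF Cfsg.Agent.H784.Q

universe u

/-- arithmetic: `u^n ≡ 1 (mod 2^m)`, `n` odd, implies `u ≡ 1`. -/
theorem two_pow_dvd_sub_one {m n : ℕ} (hm : 1 ≤ m) (hn : Odd n) {u : ℤ} (h : (2 ^ m : ℤ) ∣ u ^ n - 1) : (2 ^ m : ℤ) ∣ u - 1 := by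
  have h1 : (∑ i ∈ Finset.range n, u ^ i) * (u - 1) = u ^ n - 1 := geom_sum_mul u n
  have h2 : Odd (u ^ n) := by
    have h3 : (2 : ℤ) ∣ u ^ n - 1 := dvd_trans (dvd_pow_self 2 (by omega)) h
    have h4 : Even (u ^ n - 1) := even_iff_two_dvd.mpr h3
    have h5 : Odd (u ^ n - 1 + 1) := h4.add_one
    simpa using h5
  have h3 : Odd u := by
    rcases Int.even_or_odd u with h4 | h4
    · exfalso
      have : Even (u ^ n) := h4.pow_of_ne_zero (by rcases hn with ⟨k, rfl⟩; omega)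
      exact (Int.not_even_iff_odd.mpr h2) this
    · exact h4
  have h4 : Odd (∑ i ∈ Finset.range n, u ^ i) := by
    have h5 : ∀ k : ℕ, (Odd (∑ i ∈ Finset.range k, u ^ i) ↔ Odd k) := by
      intro k
      induction k with
      | zero => simp
      | succ k ih =>
        rw [Finset.sum_range_succ, Int.odd_add', Nat.odd_add_one, ← ih, Int.not_odd_iff_even]
        constructor
        · intro h6
          exact h6.mp h3.pow
        · intro h6
          exact ⟨fun _ => h6, fun _ => h3.pow⟩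
    exact (h5 n).mpr hn
  have h5 : IsCoprime (2 ^ m : ℤ) (∑ i ∈ Finset.range n, u ^ i) := by
    apply IsCoprime.pow_left
    rw [Int.isCoprime_iff_gcd_eq_one]
    rcases h4 with ⟨k, hk⟩
    rw [hk]
    have : IsCoprime (2 : ℤ) (2 * k + 1) := ⟨-k, 1, by ring⟩
    exact Int.isCoprime_iff_gcd_eq_one.mp this
  rw [← h1] at h
  exact h5.dvd_of_dvd_mul_left h

variable {Ω : Type u} [Group Ω] {S : Subgroup Ω} [Finite S] {F : FusionSystem S} {R : Subgroup Ω} {a b z r : Ω} {m : ℕ}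
  {t c d k w : Ω} {β : Ω → Ω}

theorem zpow_eq_one_of {g : Ω} {m : ℕ} (hg : orderOf g = 2 ^ m) {i : ℤ} (h : g ^ i = 1) : (2 ^ m : ℤ) ∣ i := by
  have h1 := orderOf_dvd_iff_zpow_eq_one.mpr h
  rw [hg] at h1
  exact_mod_cast h1

theorem zpow_one_of {g : Ω} {m : ℕ} (hg : orderOf g = 2 ^ m) {i : ℤ} (h : (2 ^ m : ℤ) ∣ i) : g ^ i = 1 := by
  apply orderOf_dvd_iff_zpow_eq_one.mp
  rw [hg]
  exact_mod_cast h

/-- An `F`-map of odd order fixes the generator of a cyclic 2-group that it normalizes. -/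
theorem odd_fix {P : Subgroup Ω} {f : Ω → Ω} (hf : Mp F P f) {g : Ω} (hg : g ∈ P) {m : ℕ} (hm : 1 ≤ m)
    (og : orderOf g = 2 ^ m) (h : f g ∈ Subgroup.zpowers g) {n : ℕ} (hn : Odd n) (hfix : f^[n] g = g) : f g = g := by
  obtain ⟨u, hu⟩ := Subgroup.mem_zpowers_iff.mp h
  have hz : ∀ l : ℤ, f (g ^ l) = (f g) ^ l := by
    intro l
    cases l with
    | ofNat l => rw [Int.ofNat_eq_natCast, zpow_natCast, zpow_natCast, hf.pow hg]
    | negSucc l => rw [zpow_negSucc, zpow_negSucc, hf.inv (pow_mem hg _), hf.pow hg]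
  have h1 : ∀ k : ℕ, f^[k] g = g ^ (u ^ k) := by
    intro k
    induction k with
    | zero => simp
    | succ k ih => rw [Function.iterate_succ_apply', ih, hz, ← hu, ← zpow_mul, pow_succ']
  rw [h1] at hfix
  have h2 : g ^ (u ^ n - 1) = 1 := by rw [zpow_sub, hfix, zpow_one, mul_inv_cancel]
  have h3 := two_pow_dvd_sub_one hm hn (zpow_eq_one_of og h2)
  have h4 := zpow_one_of og h3
  rw [zpow_sub, zpow_one] at h4
  rw [← hu]
  exact mul_inv_eq_one.mp h4

theorem mp_zpow {P : Subgroup Ω} {f : Ω → Ω} (hf : Mp F P f) {g : Ω} (hg : g ∈ P) (l : ℤ) : f (g ^ l) = (f g) ^ l := by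
  cases l with
  | ofNat l => rw [Int.ofNat_eq_natCast, zpow_natCast, zpow_natCast, hf.pow hg]
  | negSucc l => rw [zpow_negSucc, zpow_negSucc, hf.inv (pow_mem hg _), hf.pow hg]

namespace A8

variable (h : CaseA8 F R a b z r m t c d k w β)
include h

theorem m1 : 1 ≤ m := by have := h.sit.qr.m3; omega
theorem aS : a ∈ S := h.sit.RS h.sit.qr.aR
theorem bS : b ∈ S := h.sit.RS h.sit.qr.bR
theorem dS : d ∈ S := (mem_CS.mp h.dC).1
theorem wS : w ∈ S := (mem_K.mp h.wK).1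
theorem kS : k ∈ S := (mem_K.mp h.kK).1
theorem wa : w * a = a * w := (mem_K.mp h.wK).2 a h.sit.qr.aR
theorem wb : w * b = b * w := (mem_K.mp h.wK).2 b h.sit.qr.bR
theorem wr : w * r = r * w := (mem_K.mp h.wK).2 r h.sit.qr.rR

theorem zz : z * z = 1 := h.sit.qr.zz
theorem z1 : z ≠ 1 := h.sit.qr.z_ne

theorem ta : t * a = a * t := by
  rw [h.td]
  exact ((show Commute d a from h.da).pow_left _).eq

theorem aC : a ∈ CS S t := mem_CS.mpr ⟨aS h, (ta h).symm⟩

theorem bt : b * t = t * z * b := by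
  have h1 : SemiconjBy b (d ^ 2 ^ (m - 1)) ((d * a⁻¹) ^ 2 ^ (m - 1)) :=
    (show SemiconjBy b d (d * a⁻¹) from h.bd).pow_right _
  have hc : Commute d a := h.da
  have h2 := h1.eq
  rw [hc.inv_right.mul_pow, inv_pow, ← h.td, ← h.sit.qr.hz, h.sit.qr.zinv] at h2
  exact h2

theorem cinv : c⁻¹ = c * z := by
  have h1 : c * z * c = 1 := by
    have h2 : z * c = c * z := (h.sit.z_centr c (mem_K.mp h.cK).1).symm
    rw [mul_assoc, h2, ← mul_assoc, h.cc, zz h]
  exact inv_eq_of_mul_eq_one_left h1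

theorem wc : w * c = c⁻¹ * w := by
  obtain ⟨i, hi⟩ := Subgroup.mem_zpowers_iff.mp h.ck
  have h1 : SemiconjBy w (k ^ i) ((k⁻¹) ^ i) := (show SemiconjBy w k k⁻¹ from h.wk).zpow_right i
  have h2 := h1.eq
  rw [inv_zpow, hi] at h2
  exact h2

theorem wt : w * t = t * z * w := by
  rw [h.tc, ← mul_assoc, wr h, mul_assoc, wc h, cinv h]
  simp only [mul_assoc]

theorem bwC : b * w ∈ CS S t := by
  refine mem_CS.mpr ⟨mul_mem (bS h) (wS h), ?_⟩
  rw [mul_assoc, wt h, ← mul_assoc, ← mul_assoc, bt h]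
  have h1 : z * b = b * z := h.sit.qr.bz
  calc t * z * b * z * w = t * (z * b) * z * w := by simp only [mul_assoc]
    _ = t * b * (z * z) * w := by rw [h1]; simp only [mul_assoc]
    _ = t * (b * w) := by rw [zz h, mul_one, mul_assoc]

/-- `b w` inverts `M`. -/
theorem bw_inv : ∀ x ∈ Subgroup.zpowers a ⊔ Subgroup.zpowers d, b * w * x * (b * w)⁻¹ = x⁻¹ := by
  obtain ⟨i, hi⟩ := h.pow _ (bwC h)
  have haM : a ∈ Subgroup.zpowers a ⊔ Subgroup.zpowers d :=
    (le_sup_left : Subgroup.zpowers a ≤ _) (Subgroup.mem_zpowers a)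
  have hdM : d ∈ Subgroup.zpowers a ⊔ Subgroup.zpowers d :=
    (le_sup_right : Subgroup.zpowers d ≤ _) (Subgroup.mem_zpowers d)
  have h1 : b * w * a * (b * w)⁻¹ = a⁻¹ := by
    have h2 : b * w * a = a⁻¹ * (b * w) := by
      rw [mul_assoc, wa h, ← mul_assoc, h.sit.qr.ba, mul_assoc]
    rw [h2, mul_inv_cancel_right]
  have h2 := hi a haM
  rw [h1] at h2
  have h3 : a ^ (i + 1) = 1 := by rw [pow_succ, ← h2, inv_mul_cancel]
  have h4 : 2 ^ m ∣ i + 1 := by rw [← h.sit.qr.oa]; exact orderOf_dvd_of_pow_eq_one h3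
  have h5 : ∀ g : Ω, orderOf g = 2 ^ m → g ^ i = g⁻¹ := by
    intro g hg
    have h6 : g ^ (i + 1) = 1 := orderOf_dvd_iff_pow_eq_one.mp (hg ▸ h4)
    rw [pow_succ] at h6
    exact eq_inv_of_mul_eq_one_left h6
  intro x hx
  rw [hi x hx]
  obtain ⟨i', l', rfl⟩ := mem_AD h.da hx
  have hc : Commute (a ^ i') (d ^ l') := ((show Commute d a from h.da).symm.zpow_zpow i' l')
  rw [hc.mul_pow, mul_inv_rev, ← zpow_natCast, ← zpow_natCast, ← zpow_mul, ← zpow_mul, mul_comm i', mul_comm l', zpow_mul,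
    zpow_mul, zpow_natCast, zpow_natCast, h5 a h.sit.qr.oa, h5 d h.od, inv_zpow, inv_zpow]
  exact (hc.inv_inv).eq

theorem wd : w * d = a * d⁻¹ * w := by
  have hdM : d ∈ Subgroup.zpowers a ⊔ Subgroup.zpowers d :=
    (le_sup_right : Subgroup.zpowers d ≤ _) (Subgroup.mem_zpowers d)
  have h1 := bw_inv h d hdM
  have hc : Commute d a := h.da
  have h2 : b * (a * d⁻¹) = d⁻¹ * b := by
    have h3 : SemiconjBy b (a * d⁻¹) (a⁻¹ * (d * a⁻¹)⁻¹) :=
      (show SemiconjBy b a a⁻¹ from h.sit.qr.ba).mul_right (show SemiconjBy b d (d * a⁻¹) from h.bd).inv_right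
    have h4 := h3.eq
    rw [mul_inv_rev, inv_inv, inv_mul_cancel_left] at h4
    exact h4
  have h3 : b * (w * d) = b * (a * d⁻¹ * w) := by
    calc b * (w * d) = b * w * d * (b * w)⁻¹ * (b * w) := by group
      _ = d⁻¹ * (b * w) := by rw [h1]
      _ = d⁻¹ * b * w := by rw [mul_assoc]
      _ = b * (a * d⁻¹) * w := by rw [h2]
      _ = _ := by rw [mul_assoc]
  exact mul_left_cancel h3

theorem rel : Rel a d b w z m where
  oa := h.sit.qr.a_two_pow
  od := by rw [← h.od, pow_orderOf_eq_one]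
  da := h.da
  hz := h.sit.qr.hz
  bb := h.sit.qr.bb
  ba := h.sit.qr.ba
  bd := h.bd
  wa := wa h
  wb := wb h
  wd := wd h
  ww := h.ww

theorem c_eq : c = k ^ 2 ^ (m - 2) := by
  have hc : Commute d a := h.da
  have h0 : 2 ^ (m - 2) + 2 ^ (m - 2) = 2 ^ (m - 1) := by
    have := h.sit.qr.m3
    rw [← two_mul, ← pow_succ']
    congr 1
    omega
  have h1 : k ^ 2 ^ (m - 2) = t * r⁻¹ := by
    rw [h.hk, ((hc.mul_left hc).inv_right).mul_pow, (Commute.refl d).mul_pow, ← pow_add, h0, ← h.td, inv_pow, ← h.sit.qr.hr]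
  have h2 : c = r⁻¹ * t := by rw [h.tc, inv_mul_cancel_left]
  have h3 : Commute t r := by
    rw [h.sit.qr.hr]
    exact (show Commute t a from ta h).pow_right _
  rw [h1, h2]
  exact (h3.inv_right.eq).symm

end A8

end Cfsg.Agent.H764.Q
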