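import Cfsg.Agent.H784.Q.CaseADef
import Cfsg.Agent.H784.Q.Bas
import Cfsg.Agent.H757.Sf.Basic

/-! # S5176, section 5: coordinates; the isomorphism of two Sylow groups of case (A8) -/
set_option autoImplicit false

namespace Cfsg.Agent.H764.Q
open Cfsg Cfsg.FusionSystem Cfsg.Agent.H752 Cfsg.Agent.H784.SF Cfsg.Agent.H784.Q

/-- Elements of `⟨a⟩⟨d⟩`. -/
theorem mem_AD {G : Type*} [Group G] {a d x : G} (hda : d * a = a * d)
    (hx : x ∈ Subgroup.zpowers a ⊔ Subgroup.zpowers d) : ∃ i l : ℤ, x = a ^ i * d ^ l := by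
  have hc : Commute d a := hda
  rw [Subgroup.zpowers_eq_closure, Subgroup.zpowers_eq_closure, ← Subgroup.closure_union] at hx
  induction hx using Subgroup.closure_induction with
  | mem y hy =>
    rcases hy with hy | hy
    · rw [Set.mem_singleton_iff] at hy
      exact ⟨1, 0, by rw [hy]; simp⟩
    · rw [Set.mem_singleton_iff] at hy
      exact ⟨0, 1, by rw [hy]; simp⟩
  | one => exact ⟨0, 0, by simp⟩
  | mul y y' _ _ h1 h2 =>
    obtain ⟨i, l, rfl⟩ := h1
    obtain ⟨i', l', rfl⟩ := h2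
    refine ⟨i + i', l + l', ?_⟩
    rw [zpow_add, zpow_add, mul_assoc, ← mul_assoc (d ^ l), (hc.zpow_zpow l i').eq]
    simp only [mul_assoc]
  | inv y _ h1 =>
    obtain ⟨i, l, rfl⟩ := h1
    refine ⟨-i, -l, ?_⟩
    rw [mul_inv_rev, zpow_neg, zpow_neg, ← zpow_neg, ← zpow_neg, (hc.zpow_zpow (-l) (-i)).eq]

theorem AD_mem {G : Type*} [Group G] {a d : G} (i l : ℤ) : a ^ i * d ^ l ∈ Subgroup.zpowers a ⊔ Subgroup.zpowers d :=
  mul_mem ((le_sup_left : Subgroup.zpowers a ≤ _) (Subgroup.zpow_mem _ (Subgroup.mem_zpowers a) i))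
    ((le_sup_right : Subgroup.zpowers d ≤ _) (Subgroup.zpow_mem _ (Subgroup.mem_zpowers d) l))

/-- The relations of the group of order `4·(2^m)²`. -/
structure Rel {G : Type*} [Group G] (a d b w z : G) (m : ℕ) : Prop where
  oa : a ^ 2 ^ m = 1
  od : d ^ 2 ^ m = 1
  da : d * a = a * d
  hz : z = a ^ 2 ^ (m - 1)
  bb : b * b = z
  ba : b * a = a⁻¹ * b
  bd : b * d = d * a⁻¹ * b
  wa : w * a = a * w
  wb : w * b = b * w
  wd : w * d = a * d⁻¹ * w
  ww : w * w = z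

theorem Rel.prod {G G' : Type*} [Group G] [Group G'] {a d b w z : G} {a' d' b' w' z' : G'} {m : ℕ} (h : Rel a d b w z m)
    (h' : Rel a' d' b' w' z' m) : Rel (a, a') (d, d') (b, b') (w, w') (z, z') m where
  oa := Prod.ext h.oa h'.oa
  od := Prod.ext h.od h'.od
  da := Prod.ext h.da h'.da
  hz := Prod.ext h.hz h'.hz
  bb := Prod.ext h.bb h'.bb
  ba := Prod.ext h.ba h'.ba
  bd := Prod.ext h.bd h'.bd
  wa := Prod.ext h.wa h'.wa
  wb := Prod.ext h.wb h'.wb
  wd := Prod.ext h.wd h'.wd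
  ww := Prod.ext h.ww h'.ww

namespace Rel

variable {G : Type*} [Group G] {a d b w z : G} {m : ℕ} (h : Rel a d b w z m)
include h

theorem zb : z * b = b * z := by rw [← h.bb, mul_assoc]
theorem zw : z * w = w * z := by rw [← h.ww, mul_assoc]

theorem b_nf (i l : ℤ) : b * (a ^ i * d ^ l) = a ^ (-i - l) * d ^ l * b := by
  have h1 : SemiconjBy b (a ^ i) ((a⁻¹) ^ i) := (show SemiconjBy b a a⁻¹ from h.ba).zpow_right i
  have h2 : SemiconjBy b (d ^ l) ((d * a⁻¹) ^ l) := (show SemiconjBy b d (d * a⁻¹) from h.bd).zpow_right l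
  have hc : Commute d a := h.da
  have h3 := (h1.mul_right h2).eq
  rw [h3, hc.inv_right.mul_zpow, inv_zpow, inv_zpow, ← zpow_neg, ← zpow_neg, sub_eq_add_neg, zpow_add,
    (hc.zpow_zpow l (-l)).eq]
  simp only [mul_assoc]

theorem w_nf (i l : ℤ) : w * (a ^ i * d ^ l) = a ^ (i + l) * d ^ (-l) * w := by
  have h1 : SemiconjBy w (a ^ i) (a ^ i) := (show SemiconjBy w a a from h.wa).zpow_right i
  have h2 : SemiconjBy w (d ^ l) ((a * d⁻¹) ^ l) := (show SemiconjBy w d (a * d⁻¹) from h.wd).zpow_right l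
  have hc : Commute a d := (show Commute d a from h.da).symm
  have h3 := (h1.mul_right h2).eq
  rw [h3, hc.inv_right.mul_zpow, inv_zpow, ← zpow_neg, zpow_add]
  simp only [mul_assoc]

/-- Normal form. -/
def NF (a d b w x : G) : Prop := ∃ i l : ℤ, x = a ^ i * d ^ l ∨ x = a ^ i * d ^ l * b ∨ x = a ^ i * d ^ l * w ∨
  x = a ^ i * d ^ l * (b * w)

theorem nf_a {x : G} (hx : NF a d b w x) (n : ℤ) : NF a d b w (a ^ n * x) := by
  obtain ⟨i, l, hx⟩ := hx
  refine ⟨n + i, l, ?_⟩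
  rcases hx with rfl | rfl | rfl | rfl
  · exact Or.inl (by rw [zpow_add]; simp only [mul_assoc])
  · exact Or.inr (Or.inl (by rw [zpow_add]; simp only [mul_assoc]))
  · exact Or.inr (Or.inr (Or.inl (by rw [zpow_add]; simp only [mul_assoc])))
  · exact Or.inr (Or.inr (Or.inr (by rw [zpow_add]; simp only [mul_assoc])))

theorem nf_d {x : G} (hx : NF a d b w x) (n : ℤ) : NF a d b w (d ^ n * x) := by
  have hc : Commute d a := h.da
  obtain ⟨i, l, hx⟩ := hx
  have h1 : d ^ n * (a ^ i * d ^ l) = a ^ i * d ^ (n + l) := by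
    rw [← mul_assoc, (hc.zpow_zpow n i).eq, mul_assoc, ← zpow_add]
  refine ⟨i, n + l, ?_⟩
  rcases hx with rfl | rfl | rfl | rfl
  · exact Or.inl h1
  · exact Or.inr (Or.inl (by rw [← mul_assoc, h1]))
  · exact Or.inr (Or.inr (Or.inl (by rw [← mul_assoc, h1])))
  · exact Or.inr (Or.inr (Or.inr (by rw [← mul_assoc, h1])))

theorem z_comm_AD (i l : ℤ) : z * (a ^ i * d ^ l) = a ^ i * d ^ l * z := by
  have hc : Commute d a := h.da
  rw [h.hz]
  have h1 : Commute (a ^ 2 ^ (m - 1)) (a ^ i) := (Commute.refl a).pow_left _ |>.zpow_right _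
  have h2 : Commute (a ^ 2 ^ (m - 1)) (d ^ l) := (hc.symm.pow_left _).zpow_right _
  exact (h1.mul_right h2).eq

theorem nf_z {x : G} (hx : NF a d b w x) : NF a d b w (z * x) := by
  have := h.nf_a hx ((2 ^ (m - 1) : ℕ) : ℤ)
  rwa [zpow_natCast, ← h.hz] at this

theorem nf_b {x : G} (hx : NF a d b w x) : NF a d b w (b * x) := by
  obtain ⟨i, l, hx⟩ := hx
  rcases hx with rfl | rfl | rfl | rfl
  · exact ⟨-i - l, l, Or.inr (Or.inl (h.b_nf i l))⟩
  · rw [← mul_assoc, h.b_nf, mul_assoc, h.bb, ← h.z_comm_AD]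
    exact h.nf_z ⟨_, _, Or.inl rfl⟩
  · rw [← mul_assoc, h.b_nf, mul_assoc]
    exact ⟨_, _, Or.inr (Or.inr (Or.inr rfl))⟩
  · rw [← mul_assoc, h.b_nf, mul_assoc, ← mul_assoc b b w, h.bb, ← mul_assoc, ← h.z_comm_AD, mul_assoc]
    exact h.nf_z ⟨_, _, Or.inr (Or.inr (Or.inl rfl))⟩

theorem nf_w {x : G} (hx : NF a d b w x) : NF a d b w (w * x) := by
  obtain ⟨i, l, hx⟩ := hx
  rcases hx with rfl | rfl | rfl | rfl
  · exact ⟨i + l, -l, Or.inr (Or.inr (Or.inl (h.w_nf i l)))⟩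
  · rw [← mul_assoc, h.w_nf, mul_assoc, h.wb]
    exact ⟨_, _, Or.inr (Or.inr (Or.inr rfl))⟩
  · rw [← mul_assoc, h.w_nf, mul_assoc, h.ww, ← h.z_comm_AD]
    exact h.nf_z ⟨_, _, Or.inl rfl⟩
  · rw [← mul_assoc, h.w_nf, mul_assoc, ← mul_assoc w b w, h.wb, mul_assoc b w w, h.ww, ← h.zb, ← mul_assoc,
      ← h.z_comm_AD, mul_assoc]
    exact h.nf_z ⟨_, _, Or.inr (Or.inl rfl)⟩

theorem zz (hm : 1 ≤ m) : z * z = 1 := by
  rw [h.hz, ← pow_add, ← two_mul, ← pow_succ', Nat.sub_add_cancel hm, h.oa]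

theorem nf (hm : 1 ≤ m) {x : G} (hx : x ∈ Subgroup.closure {a, d, b, w}) : NF a d b w x := by
  have hzinv : z⁻¹ = z := inv_eq_of_mul_eq_one_right (h.zz hm)
  have hb : b⁻¹ = z * b := by
    rw [← hzinv, ← h.bb]; group
  have hw : w⁻¹ = z * w := by
    rw [← hzinv, ← h.ww]; group
  induction hx using Subgroup.closure_induction_left with
  | one => exact ⟨0, 0, Or.inl (by simp)⟩
  | mul_left x hx y _ hy =>
    rcases hx with rfl | rfl | rfl | hx
    · have := h.nf_a hy 1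
      rwa [zpow_one] at this
    · have := h.nf_d hy 1
      rwa [zpow_one] at this
    · exact h.nf_b hy
    · rw [Set.mem_singleton_iff] at hx
      rw [hx]
      exact h.nf_w hy
  | inv_mul_cancel x hx y _ hy =>
    rcases hx with rfl | rfl | rfl | hx
    · have := h.nf_a hy (-1)
      rwa [zpow_neg_one] at this
    · have := h.nf_d hy (-1)
      rwa [zpow_neg_one] at this
    · rw [hb, mul_assoc]
      exact h.nf_z (h.nf_b hy)
    · rw [Set.mem_singleton_iff] at hx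
      rw [hx, hw, mul_assoc]
      exact h.nf_z (h.nf_w hy)

end Rel

end Cfsg.Agent.H764.Q
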